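import Cfsg.Agent.Chev.Parabolic

/-!
# `C_{P_J}(U_J) ≤ U` for a proper standard parabolic subgroup
-/

set_option autoImplicit false

namespace CfsgLib.Chev

open Cfsg.Lie Matrix

universe u

namespace Sys

variable {D : ChevalleyDatum} (S : Sys.{u} D) {F : Type u} [Field F]

include S

/-- Conjugating a root element by an element of `U` only changes it beyond its root. -/
theorem conj_mod_tail {r : ℕ} (h1 : D.nroots / 2 ≤ r) (h2 : r < D.nroots) (t : F) {g : GL D.Idx F}
    (hg : g ∈ D.posUnipotent F) :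
    ∃ e ∈ S.tailU F (r + 1), g * S.xU r t * g⁻¹ = S.xU r t * e := by
  rw [S.posUnipotent_eq] at hg
  induction hg using Subgroup.closure_induction'' with
  | mem y hy =>
    obtain ⟨s, v, hs1, hs2, rfl⟩ := hy
    obtain ⟨c, hc, e⟩ := S.commutator_mem hs2 h2 hs1 h1 v t
    exact ⟨c, S.tailU_mono (by omega) hc, e⟩
  | inv_mem y hy =>
    obtain ⟨s, v, hs1, hs2, rfl⟩ := hy
    obtain ⟨c, hc, e⟩ := S.commutator_mem hs2 h2 hs1 h1 (-v) t
    exact ⟨c, S.tailU_mono (by omega) hc, by rw [S.xU_inv]; exact e⟩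
  | one => exact ⟨1, one_mem _, by simp⟩
  | mul a b ha _ iha ihb =>
    obtain ⟨e₁, he₁, ea⟩ := iha
    obtain ⟨e₂, he₂, eb⟩ := ihb
    have haU : a ∈ D.posUnipotent F := by rw [S.posUnipotent_eq]; exact ha
    refine ⟨e₁ * (a * e₂ * a⁻¹), mul_mem he₁ (S.conj_tailU (by omega) haU _ he₂), ?_⟩
    rw [show a * b * S.xU r t * (a * b)⁻¹ = a * (b * S.xU r t * b⁻¹) * a⁻¹ by group, eb,
      show a * (S.xU r t * e₂) * a⁻¹ = a * S.xU r t * a⁻¹ * (a * e₂ * a⁻¹) by group, ea, mul_assoc]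

theorem borel_conj_root {r : ℕ} (h1 : D.nroots / 2 ≤ r) (h2 : r < D.nroots) {b : GL D.Idx F}
    (hb : b ∈ D.borelSubgroup F) (t : F) :
    ∃ a : Fˣ, ∃ e ∈ S.tailU F (r + 1), b * S.xU r t * b⁻¹ = S.xU r ((a : F) * t) * e := by
  obtain ⟨u, hu, h, hh, rfl⟩ := S.mem_borel_iff.1 hb
  obtain ⟨z, rfl⟩ := S.exists_dg hh
  obtain ⟨e, he, ee⟩ := S.conj_mod_tail h1 h2 ((S.chi z r : F) * t) hu
  refine ⟨S.chi z r, e, he, ?_⟩
  rw [← ee, ← S.dg_conj_xU z h2]; group

theorem eq_of_xU_mul_tail {r s : ℕ} (h1 : D.nroots / 2 ≤ r) (h2 : r < D.nroots)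
    (h3 : D.nroots / 2 ≤ s) (h4 : s < D.nroots) {a c : F} (ha : a ≠ 0) (hc : c ≠ 0)
    {e : GL D.Idx F} (he : e ∈ S.tailU F (r + 1)) (h : S.xU s c = S.xU r a * e) : s = r := by
  rcases lt_trichotomy s r with hlt | rfl | hgt
  · have : S.xU s c ∈ S.tailU F (s + 1) :=
      h ▸ mul_mem (S.xU_mem_tailU hlt h2 a) (S.tailU_mono (by omega) he)
    exact absurd (S.eq_zero_of_mem_tail h3 h4 this) hc
  · rfl
  · have : S.xU r a ∈ S.tailU F (r + 1) := by
      rw [show S.xU r a = S.xU s c * e⁻¹ by rw [h]; group]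
      exact mul_mem (S.xU_mem_tailU hgt h4 c) (inv_mem he)
    exact absurd (S.eq_zero_of_mem_tail h1 h2 this) ha

/-- All positive roots stay positive if the fundamental ones do. -/
theorem pos_of_simple_pos {L : List ℕ} (hL : ∀ q ∈ L, q < D.rank)
    (h : ∀ q (hq : q < D.rank), D.nroots / 2 ≤ (S.wprod L ⟨D.simple q, S.simple_lt hq⟩ : ℕ))
    (r : Fin D.nroots) (hr : D.nroots / 2 ≤ (r : ℕ)) : D.nroots / 2 ≤ (S.wprod L r : ℕ) := by
  obtain ⟨g, hg⟩ := S.wprod_linear hL S.wt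
  have hgi : ∀ i ∈ Finset.range D.rank, 0 < g i := by
    intro i hi
    have hi' := Finset.mem_range.1 hi
    have h0 := hg ⟨D.simple i, S.simple_lt hi'⟩
    rw [← S.lev_eq, Finset.sum_eq_single_of_mem i hi (fun j hj hne => by
      rw [S.vec_simple i hi' j (Finset.mem_range.1 hj), if_neg (Ne.symm hne), mul_zero]),
      S.vec_simple i hi' i hi', if_pos rfl, mul_one] at h0
    rw [← h0]
    exact S.lev_pos (Fin.is_lt _) (h i hi')
  by_contra hneg
  have h0 := S.lev_lt_zero (not_le.1 hneg)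
  rw [S.lev_eq, hg r] at h0
  exact absurd h0 (not_lt.2 (Finset.sum_nonneg fun i hi =>
    mul_nonneg (hgi i hi).le (S.vec_nonneg r r.2 hr i (Finset.mem_range.1 hi))))

/-- Every fundamental root is a difference of roots outside a proper root subsystem. -/
theorem exists_diff (G : Geo D) {J : Set ℕ} (hJ : ∃ i, i < D.rank ∧ i ∉ J) {j : ℕ}
    (hj : j < D.rank) : ¬ S.InJ J (D.simple j) ∨ ∃ s v, s < D.nroots ∧ v < D.nroots ∧
      ¬ S.InJ J s ∧ ¬ S.InJ J v ∧ ∀ i < D.rank, S.vec v i = S.vec (D.simple j) i + S.vec s i := by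
  obtain ⟨k, hk, hkJ⟩ := hJ
  by_cases hjk : j = k
  · subst hjk
    exact Or.inl fun h => hkJ ((S.inJ_simple_iff hj).1 h)
  right
  obtain ⟨s, hs, hsk, hroot⟩ := G.conn j hj k hk hjk
  obtain ⟨v, hv⟩ := Option.isSome_iff_exists.1 hroot
  simp only [ChevalleyDatum.chainRoot, Option.map_eq_some_iff] at hv
  obtain ⟨⟨v', M⟩, he, rfl⟩ := hv
  obtain ⟨hv, -, -, hvec⟩ := S.chain _ (S.simple_lt hj) s hs 0 v' M he
  have hvs : ∀ i < D.rank, S.vec v' i = S.vec (D.simple j) i + S.vec s i := fun i hi => by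
    rw [hvec i hi]; simp
  have hsk' : S.vec s k ≠ 0 := fun h => hsk ((S.cor_eq_zero_iff G hs hk).2 h)
  refine ⟨s, v', hs, hv, fun h => hsk' (h.2 k hk hkJ), fun h => hsk' ?_, hvs⟩
  have := h.2 k hk hkJ
  rw [hvs k hk, S.vec_simple j hj k hk, if_neg hjk, zero_add] at this
  exact this

/-- The centraliser of the radical in a proper parabolic lies in `U`. -/
theorem centralizer_radical_le (G : Geo D) {J : Set ℕ} (hJ : ∃ i, i < D.rank ∧ i ∉ J)
    {g : GL D.Idx F} (hg : g ∈ D.parabolicSubgroup F J)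
    (hc : g ∈ Subgroup.centralizer (D.unipotentRadical F J : Set (GL D.Idx F))) :
    g ∈ D.posUnipotent F := by
  have hrad : ∀ r, D.nroots / 2 ≤ r → r < D.nroots → ¬ S.InJ J r → ∀ t : F,
      S.xU r t ∈ D.unipotentRadical F J := fun r h1 h2 h3 t => by
    rw [S.unipotentRadical_eq G]; exact S.xU_mem_genBy h1 h2 h3 t
  obtain ⟨b, hb, n, hn, b', hb', rfl⟩ := S.exists_bnb (S.parabolic_le_group J hg)
  have hb'P : b' ∈ D.parabolicSubgroup F J := Subgroup.mem_sup_left hb'
  have hN := Subgroup.mem_normalizer_iff.1 (S.parabolic_le_normalizer G J hb'P)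
  -- `b' g b'⁻¹` centralises the radical
  have hc' : ∀ x ∈ D.unipotentRadical F J, b' * b * n * x = x * (b' * b * n) := by
    intro x hx
    have hy : b'⁻¹ * x * b' ∈ D.unipotentRadical F J :=
      (hN _).2 (by rwa [show b' * (b'⁻¹ * x * b') * b'⁻¹ = x by group])
    have e := Subgroup.mem_centralizer_iff.1 hc _ hy
    calc b' * b * n * x = b' * (b * n * b' * (b'⁻¹ * x * b')) * b'⁻¹ := by group
      _ = b' * (b'⁻¹ * x * b' * (b * n * b')) * b'⁻¹ := by rw [← e]
      _ = x * (b' * b * n) := by group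
  obtain ⟨c, hcB, hcdef⟩ : ∃ c ∈ D.borelSubgroup F, c = b' * b := ⟨_, mul_mem hb' hb, rfl⟩
  rw [← hcdef] at hc'
  obtain ⟨L, hL, h₀, hh₀, rfl⟩ := S.mem_mono_iff.1 hn
  set n := h₀ * S.nw F L with hndef
  obtain ⟨w, hw⟩ : ∃ w, w = S.wprod L := ⟨_, rfl⟩
  have hact : S.Acts n w := by
    simpa [hndef, hw] using S.acts_mul (S.acts_diag hh₀) (S.acts_nw (F := F) hL)
  have hfix : ∀ r : Fin D.nroots, ¬ S.InJ J r → w r = r := by
    have hfixpos : ∀ r : Fin D.nroots, D.nroots / 2 ≤ (r : ℕ) → ¬ S.InJ J r → w r = r := by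
      intro r hr hrJ
      obtain ⟨a, ha⟩ := hact r
      have e : S.xU (w r : ℕ) (a : F) = c⁻¹ * S.xU (r : ℕ) (1 : F) * c := by
        have h1 := hc' _ (hrad r hr r.2 hrJ 1)
        have h2 := ha 1
        rw [mul_one] at h2
        rw [← h2, mul_assoc c⁻¹, mul_assoc, eq_inv_mul_iff_mul_eq, ← mul_assoc, ← mul_assoc,
          mul_inv_eq_iff_eq_mul, h1, ← mul_assoc]
      obtain ⟨a', e', he', ee⟩ := S.borel_conj_root hr r.2 (inv_mem hcB) (1 : F)
      rw [inv_inv, mul_one] at ee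
      rw [ee] at e
      have hwpos : D.nroots / 2 ≤ (w r : ℕ) := by
        refine S.pos_of_xU_mem (Fin.is_lt _) a.ne_zero ?_
        rw [e, S.posUnipotent_eq]
        exact mul_mem (S.xU_mem_tailU hr r.2 _) (S.tailU_mono (by omega) he')
      exact Fin.ext (S.eq_of_xU_mul_tail hr r.2 hwpos (Fin.is_lt _) a'.ne_zero a.ne_zero he' e)
    intro r hrJ
    by_cases hr : D.nroots / 2 ≤ (r : ℕ)
    · exact hfixpos r hr hrJ
    · have hnr := S.neg_lt r.2
      have h := hfixpos ⟨D.neg r, hnr⟩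
        (by show D.nroots / 2 ≤ D.neg r; rw [S.neg_eq r r.2]; have := S.even_nroots; omega)
        (fun h => hrJ ((S.inJ_neg r.2).1 h))
      have h' := S.wprod_neg hL r ⟨D.neg r, hnr⟩ rfl
      rw [← hw, h] at h'
      refine Fin.ext ?_
      rw [← S.neg_neg (Fin.is_lt (w r)), ← h', S.neg_neg r.2]
  have hsimple : ∀ j (hj : j < D.rank), w ⟨D.simple j, S.simple_lt hj⟩ = ⟨D.simple j, S.simple_lt hj⟩ := by
    intro j hj
    rcases S.exists_diff G hJ hj with h | ⟨s, v, hs, hv, hsJ, hvJ, hvs⟩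
    · exact hfix _ h
    · obtain ⟨g, hg⟩ := S.wprod_linear hL S.wt
      have hlin : S.lev (w ⟨D.simple j, S.simple_lt hj⟩ : Fin D.nroots) = S.lev (D.simple j) := by
        have e1 := hg ⟨D.simple j, S.simple_lt hj⟩
        have e2 := hg ⟨s, hs⟩
        have e3 := hg ⟨v, hv⟩
        rw [← hw, ← S.lev_eq] at e1 e2 e3
        rw [hfix ⟨s, hs⟩ hsJ] at e2
        rw [hfix ⟨v, hv⟩ hvJ] at e3
        have e4 : S.lev v = S.lev (D.simple j) + S.lev s := by
          rw [S.lev_eq, S.lev_eq, S.lev_eq, ← Finset.sum_add_distrib]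
          exact Finset.sum_congr rfl fun i hi => by rw [hvs i (Finset.mem_range.1 hi)]; ring
        have e5 : ∑ i ∈ Finset.range D.rank, g i * S.vec v i =
            (∑ i ∈ Finset.range D.rank, g i * S.vec (D.simple j) i) +
              ∑ i ∈ Finset.range D.rank, g i * S.vec s i := by
          rw [← Finset.sum_add_distrib]
          exact Finset.sum_congr rfl fun i hi => by rw [hvs i (Finset.mem_range.1 hi)]; ring
        rw [e1]
        simp only at e2 e3
        linarith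
      refine Fin.ext ?_
      rcases lt_trichotomy ((w ⟨D.simple j, S.simple_lt hj⟩ : Fin D.nroots) : ℕ) (D.simple j)
        with h | h | h
      · exact absurd (S.lev_lt h (S.simple_lt hj)) (by rw [hlin]; exact lt_irrefl _)
      · exact h
      · exact absurd (S.lev_lt h (Fin.is_lt _)) (by rw [hlin]; exact lt_irrefl _)
  have hnH : n ∈ D.diagonalSubgroup F := S.mem_diag_of_pos hn hact fun r hr => by
    rw [hw]
    exact S.pos_of_simple_pos hL (fun q hq => by
      rw [← hw, hsimple q hq]; exact (S.simple_pos q hq).1) r hr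
  have hgB : b * n * b' ∈ D.borelSubgroup F := mul_mem (mul_mem hb (Subgroup.mem_sup_right hnH)) hb'
  obtain ⟨v, hv, h, hh, e⟩ := S.mem_borel_iff.1 hgB
  obtain ⟨z, rfl⟩ := S.exists_dg hh
  have hchi : ∀ r, r < D.nroots → ¬ S.InJ J r → S.chi z r = 1 := by
    have hpos : ∀ r, D.nroots / 2 ≤ r → r < D.nroots → ¬ S.InJ J r → S.chi z r = 1 := by
      intro r h1 h2 h3
      have hx := (Subgroup.mem_centralizer_iff.1 hc _ (hrad r h1 h2 h3 1)).symm
      rw [e] at hx
      obtain ⟨e', he', ee⟩ := S.conj_mod_tail h1 h2 ((S.chi z r : F)) hv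
      have h' : S.xU r ((S.chi z r : F) + -1) ∈ S.tailU F (r + 1) := by
        have h4 : S.xU r (1 : F) = S.xU r (S.chi z r : F) * e' := by
          rw [← ee]
          have h5 := S.dg_conj_xU z h2 (1 : F)
          rw [mul_one] at h5
          rw [← h5, show v * (S.dg z * S.xU r (1 : F) * (S.dg z)⁻¹) * v⁻¹ =
            v * S.dg z * S.xU r 1 * (v * S.dg z)⁻¹ by group, hx]; group
        rw [add_comm (S.chi z r : F), ← S.xU_add, ← S.xU_inv, show (S.xU r (1 : F))⁻¹ * S.xU r (S.chi z r : F) =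
          e'⁻¹ by rw [h4]; group]
        exact inv_mem he'
      have h6 := S.eq_zero_of_mem_tail h1 h2 h'
      exact Units.ext (by rw [Units.val_one]; linear_combination h6)
    intro r hr hrJ
    by_cases hr' : D.nroots / 2 ≤ r
    · exact hpos r hr' hr hrJ
    · have h := hpos (D.neg r)
        (by rw [S.neg_eq r hr]; have := S.even_nroots; omega) (S.neg_lt hr)
        (fun h => hrJ ((S.inJ_neg hr).1 h))
      rwa [S.chi_neg z hr, inv_eq_one] at h
  have hz : ∀ j < D.rank, z j = 1 := by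
    intro j hj
    rw [← S.chi_simple z hj]
    rcases S.exists_diff G hJ hj with h | ⟨s, v, hs, hv, hsJ, hvJ, hvs⟩
    · exact hchi _ (S.simple_lt hj) h
    · have e1 : S.chi z v = S.chi z (D.simple j) * S.chi z s := by
        rw [chi, chi, chi, ← Finset.prod_mul_distrib]
        exact Finset.prod_congr rfl fun i hi => by
          rw [hvs i (Finset.mem_range.1 hi), _root_.zpow_add]
      rwa [hchi v hv hvJ, hchi s hs hsJ, mul_one, eq_comm] at e1
  rw [e, S.dg_congr (z' := (1 : ℕ → Fˣ)) fun i hi => hz i hi,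
    show S.dg (1 : ℕ → Fˣ) = 1 from map_one S.dgHom, mul_one]
  exact hv

end Sys

end CfsgLib.Chev
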