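import Cfsg.Agent.Chev.BN
import Cfsg.Agent.Chev.FieldMap

/-! Centraliser and normaliser of a subfield group. -/

set_option autoImplicit false

namespace CfsgLib.Chev

open Cfsg.Lie Matrix

universe u

namespace Sys

variable {D : ChevalleyDatum} (S : Sys.{u} D) {k : Type u} [Field k]

include S

/-- An element of the group commuting with every `x_r(1)` is trivial. -/
theorem eq_one_of_commute_roots {g : GL D.Idx k} (hg : g ∈ D.group k)
    (hc : ∀ r, r < D.nroots → g * S.xU r 1 = S.xU r 1 * g) : g = 1 := by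
  classical
  obtain ⟨b, hb, n, hn', w, -, hw, u, hu, e⟩ := S.exists_normal_form hg
  have huU : u ∈ D.posUnipotent k := S.genBy_le_pos _ hu
  -- no positive root is made negative
  have hnf : ∀ r : Fin D.nroots, D.nroots / 2 ≤ (r : ℕ) → D.nroots / 2 ≤ (w r : ℕ) := by
    by_contra hcon
    push Not at hcon
    let A := (Finset.univ : Finset (Fin D.nroots)).filter fun r : Fin D.nroots =>
      D.nroots / 2 ≤ (r : ℕ) ∧ (w r : ℕ) < D.nroots / 2
    have hA : A.Nonempty := by
      obtain ⟨r, h1, h2⟩ := hcon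
      exact ⟨r, Finset.mem_filter.2 ⟨Finset.mem_univ _, h1, h2⟩⟩
    set r := A.max' hA with hr
    obtain ⟨-, hr1, hr2⟩ := Finset.mem_filter.1 (A.max'_mem hA)
    rw [← hr] at hr1 hr2
    have htail : S.tailU k ((r : ℕ) + 1) ≤ S.genBy k (fun s => ¬ FlipsNeg w s) := by
      rw [tailU, Subgroup.closure_le]
      rintro _ ⟨s, t, h1, h2, rfl⟩
      refine S.xU_mem_genBy (by omega) h2 ?_ t
      rintro ⟨h, hs⟩
      have : (⟨s, h⟩ : Fin D.nroots) ≤ r :=
        A.le_max' _ (Finset.mem_filter.2 ⟨Finset.mem_univ _, by show D.nroots / 2 ≤ s; omega, hs⟩)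
      have : s ≤ (r : ℕ) := this
      omega
    have hy : u * S.xU r 1 ∈ S.tailU k (D.nroots / 2) :=
      S.posUnipotent_eq (F := k) ▸ mul_mem huU (S.xU_mem_posUnipotent hr1 r.2 1)
    obtain ⟨a, ha, c, hc', eac⟩ := S.exists_split (fun s => ¬ FlipsNeg w s) le_rfl hy
    have hc'' : c ∈ S.uminus k w := S.genBy_mono (fun s _ _ h => not_not.1 h) hc'
    have e1 : b * (n * a * n⁻¹) * n * c = S.xU r 1 * b * n * u := by
      have h1 := hc r r.2
      rw [e] at h1
      calc b * (n * a * n⁻¹) * n * c = b * n * (a * c) := by group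
        _ = b * n * u * S.xU r 1 := by rw [← eac]; group
        _ = _ := by rw [h1]; group
    obtain ⟨-, hcu⟩ := S.normal_form_unique hw
      (mul_mem hb (Subgroup.mem_sup_left (S.notflips_conj_pos hw ha)))
      (mul_mem (Subgroup.mem_sup_left (S.xU_mem_posUnipotent hr1 r.2 1)) hb) hc'' hu e1
    have ha' : a = u * S.xU r 1 * u⁻¹ := by
      rw [eac, hcu]; group
    obtain ⟨y, hy', ey⟩ : ∃ y ∈ S.tailU k ((r : ℕ) + 1), a = y * S.xU r 1 := by
      refine ⟨u * S.xU r 1 * u⁻¹ * (S.xU r 1)⁻¹, ?_, by rw [ha']; group⟩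
      have hx : S.xU r (1 : k) ∈ S.tailU k r := S.xU_mem_tailU le_rfl r.2 1
      have hgen : ∀ v ∈ D.posUnipotent k, v * S.xU r 1 * v⁻¹ * (S.xU r (1 : k))⁻¹ ∈
          S.tailU k ((r : ℕ) + 1) := by
        intro v hv
        rw [S.posUnipotent_eq, tailU] at hv
        induction hv using Subgroup.closure_induction'' with
        | mem z hz =>
          obtain ⟨s, t, h1, h2, rfl⟩ := hz
          have := S.comm_tail_xU (k := (r : ℕ)) hr1 h1 h2 t le_rfl r.2 (1 : k)
          have := inv_mem this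
          rwa [show (S.xU r 1 * S.xU s t * (S.xU r 1)⁻¹ * (S.xU s t)⁻¹)⁻¹ =
            S.xU s t * S.xU r 1 * (S.xU s t)⁻¹ * (S.xU r (1 : k))⁻¹ by group] at this
        | inv_mem z hz =>
          obtain ⟨s, t, h1, h2, rfl⟩ := hz
          rw [S.xU_inv s t]
          have := S.comm_tail_xU (k := (r : ℕ)) hr1 h1 h2 (-t) le_rfl r.2 (1 : k)
          have := inv_mem this
          rwa [show (S.xU r 1 * S.xU s (-t) * (S.xU r 1)⁻¹ * (S.xU s (-t))⁻¹)⁻¹ =
            S.xU s (-t) * S.xU r 1 * (S.xU s (-t))⁻¹ * (S.xU r (1 : k))⁻¹ by group] at this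
        | one => simp
        | mul x y hxm _ hx hy =>
          have hxU : x ∈ D.posUnipotent k := by rw [S.posUnipotent_eq]; exact hxm
          have := mul_mem (S.conj_tailU (hr1.trans (Nat.le_succ _)) hxU _ hy) hx
          rwa [show x * (y * S.xU r 1 * y⁻¹ * (S.xU r 1)⁻¹) * x⁻¹ *
            (x * S.xU r 1 * x⁻¹ * (S.xU r 1)⁻¹) = x * y * S.xU r 1 * (x * y)⁻¹ * (S.xU r (1 : k))⁻¹
            by group] at this
      exact hgen u huU
    have hxa : S.xU r (1 : k) ∈ S.genBy k (fun s => ¬ FlipsNeg w s) := by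
      rw [show S.xU r (1 : k) = y⁻¹ * a by rw [ey]; group]
      exact mul_mem (inv_mem (htail hy')) ha
    obtain ⟨d, hd⟩ := hw r
    have := S.notflips_conj_pos hw hxa
    rw [hd] at this
    have := S.pos_of_xU_mem (Fin.is_lt _) (c := (d : k) * 1) (by simp) this
    omega
  have hgB : g ∈ D.borelSubgroup k := by
    have hnd : n ∈ D.diagonalSubgroup k := S.mem_diag_of_pos hn' hw hnf
    rw [e]
    exact mul_mem (mul_mem hb (Subgroup.mem_sup_right hnd)) (Subgroup.mem_sup_left huU)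
  -- the opposite Borel subgroup
  obtain ⟨L, hL, hL'⟩ := S.exists_longest
  have hcent : ∀ L : List ℕ, (∀ q ∈ L, q < D.rank) → S.nw k L * g = g * S.nw k L := by
    intro L hL
    induction L with
    | nil => simp
    | cons q L ih =>
      have hx : ∀ r, r < D.nroots → Commute g (S.xU r (1 : k)) := hc
      have hq : Commute g (S.nU (D.simple q) (1 : k)) := by
        have hall : ∀ p ∈ D.nWord (D.simple q) (1 : k),
            Commute g (S.xU p.1 p.2) := by
          intro p hp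
          simp only [ChevalleyDatum.nWord, List.mem_cons, List.not_mem_nil, or_false] at hp
          have hq' := S.simple_lt (hL q (List.mem_cons_self ..))
          rcases hp with rfl | rfl | rfl
          · exact hx _ hq'
          · simp only [inv_one]
            rw [← S.xU_inv]
            exact (hx _ (S.neg_lt hq')).inv_right
          · exact hx _ hq'
        unfold nU wU
        generalize D.nWord (D.simple q) (1 : k) = W at hall
        induction W with
        | nil => simp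
        | cons p W ihW =>
          rw [List.map_cons, List.prod_cons]
          exact (hall p (List.mem_cons_self ..)).mul_right
            (ihW fun p' hp' => hall p' (List.mem_cons_of_mem _ hp'))
      rw [nw_cons]
      exact (hq.mul_right (Commute.symm (ih fun x hx => hL x (List.mem_cons_of_mem _ hx)))).eq.symm
  have hgH : g ∈ D.diagonalSubgroup k := by
    rw [← S.borel_inf_negH]
    refine Subgroup.mem_inf.2 ⟨hgB, ?_⟩
    obtain ⟨v, hv, h, hh, ev⟩ := S.mem_borel_iff.1 hgB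
    have h0 : g = S.nw k L * v * (S.nw k L)⁻¹ * (S.nw k L * h * (S.nw k L)⁻¹) := by
      calc g = S.nw k L * g * (S.nw k L)⁻¹ := by rw [hcent L hL]; group
        _ = _ := by rw [ev]; group
    rw [h0]
    refine Subgroup.mul_mem_sup ?_ (S.nw_conj_diag hL hh)
    have : D.posUnipotent k ≤ (D.negUnipotent k).comap (MulAut.conj (S.nw k L)).toMonoidHom := by
      rw [S.posUnipotent_eq, tailU, Subgroup.closure_le]
      rintro _ ⟨r, t, h1, h2, rfl⟩
      obtain ⟨c, hc0⟩ := S.acts_nw (F := k) hL ⟨r, h2⟩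
      show S.nw k L * S.xU r t * (S.nw k L)⁻¹ ∈ D.negUnipotent k
      rw [hc0]
      exact Subgroup.subset_closure ⟨_, _, (S.isNeg_iff _).2 (hL' ⟨r, h2⟩ h1), rfl⟩
    exact this hv
  obtain ⟨z, rfl⟩ := S.exists_dg hgH
  have h1 : ∀ i < D.rank, z i = (1 : ℕ → kˣ) i := by
    intro i hi
    have hs := S.simple_lt hi
    have h2 := hc _ hs
    have h3 : S.xU (D.simple i) (1 : k) = S.xU (D.simple i) (((S.chi z (D.simple i) : kˣ) : k) * (1 : k)) := by
      rw [← S.dg_conj_xU z hs, h2]; group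
    have h4 := S.coef_one hs h3
    rw [mul_one] at h4
    rw [← S.chi_simple z hi]
    exact Units.ext h4
  rw [S.dg_congr h1]
  exact (S.dgHom (F := k)).map_one

/-- A fixed diagonal element normalises the group of fixed root elements. -/
theorem dg_normalizes_fixedGen (σ : k ≃+* k) {z : ℕ → kˣ}
    (hz : ∀ i < D.rank, σ (z i : k) = (z i : k)) {x : GL D.Idx k}
    (hx : x ∈ Subgroup.closure
      {y : GL D.Idx k | ∃ (r : ℕ) (t : k), σ t = t ∧ r < D.nroots ∧ y = S.xU r t}) :
    S.dg z * x * (S.dg z)⁻¹ ∈ Subgroup.closure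
      {y : GL D.Idx k | ∃ (r : ℕ) (t : k), σ t = t ∧ r < D.nroots ∧ y = S.xU r t} := by
  set E := Subgroup.closure
    {y : GL D.Idx k | ∃ (r : ℕ) (t : k), σ t = t ∧ r < D.nroots ∧ y = S.xU r t}
  have : E ≤ E.comap (MulAut.conj (S.dg z)).toMonoidHom := by
    rw [Subgroup.closure_le]
    rintro _ ⟨r, t, ht, hr, rfl⟩
    show S.dg z * S.xU r t * (S.dg z)⁻¹ ∈ E
    rw [S.dg_conj_xU z hr]
    refine Subgroup.subset_closure ⟨r, _, ?_, hr, rfl⟩
    rw [map_mul, ht]
    congr 1
    simp only [chi, Units.coe_prod, map_prod, Units.val_zpow_eq_zpow_val, map_zpow₀]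
    exact Finset.prod_congr rfl fun i hi => by rw [hz i (Finset.mem_range.1 hi)]
  exact this hx

/-- A group element fixed by the entrywise `σ` is (product of fixed root elements) times a fixed
diagonal element. -/
theorem fixed_decomp (σ : k ≃+* k) {g : GL D.Idx k} (hg : g ∈ D.group k)
    (hσ : glMap D (σ : k →+* k) g = g) :
    ∃ a ∈ Subgroup.closure {y : GL D.Idx k | ∃ (r : ℕ) (t : k), σ t = t ∧ r < D.nroots ∧ y = S.xU r t},
      ∃ z : ℕ → kˣ, (∀ i < D.rank, σ (z i : k) = (z i : k)) ∧ g = a * S.dg z := by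
  classical
  set T : GL D.Idx k →* GL D.Idx k := glMap D (σ : k →+* k) with hT
  set E := Subgroup.closure
    {y : GL D.Idx k | ∃ (r : ℕ) (t : k), σ t = t ∧ r < D.nroots ∧ y = S.xU r t} with hE
  obtain ⟨b, hb, n, hn, w, -, hw, x, hx, e⟩ := S.exists_normal_form hg
  obtain ⟨L, hL, h, hh, rfl⟩ := S.mem_mono_iff.1 hn
  have hwL : S.Acts (S.nw k L) w := by
    have := S.acts_mul (S.acts_diag (inv_mem hh)) hw
    rwa [inv_mul_cancel_left, one_mul] at this
  obtain ⟨b', hb'def⟩ : ∃ b', b' = b * h := ⟨_, rfl⟩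
  have hb' : b' ∈ D.borelSubgroup k := hb'def ▸ mul_mem hb (Subgroup.mem_sup_right hh)
  have e' : g = b' * S.nw k L * x := by rw [e, hb'def]; group
  obtain ⟨v, hv, h₀, hh₀, ebv⟩ := S.mem_borel_iff.1 hb'
  have hTb : T b' ∈ D.borelSubgroup k := by
    rw [ebv, map_mul]
    exact Subgroup.mul_mem_sup (S.glMap_pos _ hv) (S.glMap_diag _ hh₀)
  have hTe : T b' * S.nw k L * T x = b' * S.nw k L * x := by
    rw [← e']
    calc T b' * S.nw k L * T x = T g := by
          rw [e', map_mul, map_mul, show T (S.nw k L) = S.nw k L from S.glMap_nw (σ : k →+* k) L]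
      _ = g := hσ
  obtain ⟨hbfix, hxfix⟩ := S.normal_form_unique hwL hTb hb' (S.glMap_genBy _ _ hx) hx hTe
  have hvfix : T v = v ∧ T h₀ = h₀ := by
    have e2 : T v * T h₀ = v * h₀ := by rw [← map_mul, ← ebv]; exact hbfix
    have h1 : v⁻¹ * T v = h₀ * (T h₀)⁻¹ := by
      rw [eq_mul_inv_iff_mul_eq, mul_assoc, e2, inv_mul_cancel_left]
    have h2 : v⁻¹ * T v ∈ D.posUnipotent k ⊓ D.diagonalSubgroup k :=
      Subgroup.mem_inf.2 ⟨mul_mem (inv_mem hv) (S.glMap_pos _ hv),
        h1 ▸ mul_mem hh₀ (inv_mem (S.glMap_diag _ hh₀))⟩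
    rw [S.pos_inf_diag, Subgroup.mem_bot, inv_mul_eq_one] at h2
    refine ⟨h2.symm, ?_⟩
    rw [← h2, mul_right_inj] at e2
    exact e2
  have hpos : ∀ y ∈ D.posUnipotent k, T y = y → y ∈ E := by
    intro y hy hyfix
    rw [S.posUnipotent_eq] at hy
    obtain ⟨t, -, rfl⟩ := S.exists_prodFrom le_rfl hy
    rw [hT, S.glMap_prodFrom] at hyfix
    have ht : ∀ r, D.nroots / 2 ≤ r → r < D.nroots → σ (t r) = t r := fun r h1 h2 =>
      S.prodFrom_inj le_rfl hyfix r h1 h2
    rw [prodFrom, wU, List.map_map]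
    refine list_prod_mem fun w hw => ?_
    obtain ⟨r, hr, rfl⟩ := List.mem_map.1 hw
    rw [List.mem_range'_1] at hr
    exact Subgroup.subset_closure ⟨r, t r, ht r hr.1 (by omega), by omega, rfl⟩
  have hgen : ∀ q < D.rank, S.nU (D.simple q) (1 : k) ∈ E := by
    intro q hq
    have hq' := S.simple_lt hq
    rw [nU, wU]
    refine list_prod_mem fun w hw => ?_
    obtain ⟨p, hp, rfl⟩ := List.mem_map.1 hw
    simp only [ChevalleyDatum.nWord, List.mem_cons, List.not_mem_nil, or_false] at hp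
    rcases hp with rfl | rfl | rfl
    · exact Subgroup.subset_closure ⟨_, _, map_one σ, hq', rfl⟩
    · exact Subgroup.subset_closure ⟨_, _, by simp, S.neg_lt hq', rfl⟩
    · exact Subgroup.subset_closure ⟨_, _, map_one σ, hq', rfl⟩
  have hnw : S.nw k L ∈ E := list_prod_mem fun w hw => by
    obtain ⟨q, hq, rfl⟩ := List.mem_map.1 hw
    exact hgen q (hL q hq)
  obtain ⟨z, rfl⟩ := S.exists_dg hh₀
  have hz : ∀ i < D.rank, σ (z i : k) = (z i : k) := by
    intro i hi
    have h1 := hvfix.2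
    rw [show T (S.dg z) = S.dg fun i => Units.map ((σ : k →+* k) : k →* k) (z i) from
      S.glMap_dg _ z] at h1
    exact congrArg Units.val (S.dg_inj h1 hi)
  set y := S.nw k L * x with hy
  have hyE : y ∈ E := mul_mem hnw (hpos x (S.genBy_le_pos _ hx) hxfix)
  refine ⟨v * (S.dg z * y * (S.dg z)⁻¹), mul_mem (hpos v hv hvfix.1) ?_, z, hz,
    by rw [e', ebv, hy]; group⟩
  exact S.dg_normalizes_fixedGen σ hz hyE

/-- Conjugation by a fixed element keeps a group between the fixed root elements and the fixed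
points stable. -/
theorem fixed_conj_mem (σ : k ≃+* k) {K : Subgroup (GL D.Idx k)} (hKG : K ≤ D.group k)
    (hK : ∀ (r : ℕ) (t : k), σ t = t → r < D.nroots → S.xU r t ∈ K)
    (hfix : ∀ x ∈ K, glMap D (σ : k →+* k) x = x) {g x : GL D.Idx k} (hg : g ∈ D.group k)
    (hgσ : glMap D (σ : k →+* k) g = g) (hx : x ∈ K) : g * x * g⁻¹ ∈ K := by
  set E := Subgroup.closure
    {y : GL D.Idx k | ∃ (r : ℕ) (t : k), σ t = t ∧ r < D.nroots ∧ y = S.xU r t}
  have hEK : E ≤ K := by
    rw [Subgroup.closure_le]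
    rintro _ ⟨r, t, ht, hr, rfl⟩
    exact hK r t ht hr
  obtain ⟨a, ha, z, hz, rfl⟩ := S.fixed_decomp σ hg hgσ
  obtain ⟨a', ha', z', hz', rfl⟩ := S.fixed_decomp σ (hKG hx) (hfix x hx)
  have hcomm : S.dg z * S.dg z' = S.dg z' * S.dg z := by
    rw [← S.dg_mul, ← S.dg_mul, mul_comm]
  have e : a * S.dg z * (a' * S.dg z') * (a * S.dg z)⁻¹ =
      a * (S.dg z * a' * (S.dg z)⁻¹) * (S.dg z' * a⁻¹ * (S.dg z')⁻¹) * a'⁻¹ * (a' * S.dg z') := by
    calc _ = a * (S.dg z * a' * (S.dg z)⁻¹) * (S.dg z * S.dg z' * (S.dg z)⁻¹) * a⁻¹ := by group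
      _ = a * (S.dg z * a' * (S.dg z)⁻¹) * S.dg z' * a⁻¹ := by rw [hcomm]; group
      _ = _ := by group
  rw [e]
  exact mul_mem (hEK (mul_mem (mul_mem (mul_mem ha (S.dg_normalizes_fixedGen σ hz ha'))
    (S.dg_normalizes_fixedGen σ hz' (inv_mem ha))) (inv_mem ha'))) hx

end Sys

end CfsgLib.Chev
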