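import Cfsg.Agent.Chev.Parabolic
import Cfsg.Agent.Chev.WeylCombi

/-!
# Weakly closed subgroups of `U` are radicals of standard parabolic subgroups
-/

set_option autoImplicit false

namespace CfsgLib.Chev

open Cfsg.Lie Matrix

universe u

/-- Shapes of the low part of a commutator from which the top root can be isolated. -/
def wcShape (big : Bool) : List (ℕ × ℤ × ℕ × ℕ) → ℕ → Bool
  | [(c, C, i, j)], k => decide (c = k ∧ C.natAbs = 1 ∧ i = 1 ∧ j = 1)
  | [(_, _, i, j), (c, C, i', j')], k =>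
    decide (c = k ∧ C.natAbs = 1 ∧ i = 1 ∧ j = 1 ∧ (i' = 2 ∧ j' = 1 ∨ i' = 1 ∧ j' = 2))
  | [(_, _, i, j), (_, _, i', j'), (c, C, i'', j'')], k =>
    big && decide (c = k ∧ C.natAbs = 1 ∧ i = 1 ∧ j = 1 ∧
      (i' = 2 ∧ j' = 1 ∧ i'' = 3 ∧ j'' = 1 ∨ i' = 1 ∧ j' = 2 ∧ i'' = 1 ∧ j'' = 3))
  | _, _ => false

/-- The witness exhibits the root `k` in a commutator of two smaller positive roots. -/
def wcTerms (D : ChevalleyDatum) (big : Bool) (k : ℕ) (w : ℕ × ℕ × ℕ) : Bool :=
  decide (D.nroots / 2 ≤ w.1 ∧ w.1 < k ∧ D.nroots / 2 ≤ w.2.1 ∧ w.2.1 < k ∧ w.1 ≠ w.2.1) &&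
    wcShape big ((D.commTerms w.1 w.2.1).take w.2.2) k &&
    ((D.commTerms w.1 w.2.1).drop w.2.2).all fun c => decide (k < c.1)

/-- Exponents `(0, ±1)` separate two characters (or `(0, ±2)` over a larger field). -/
def sepVal (big : Bool) (a b : ℤ) : Bool :=
  decide (a = 0) && (decide (b.natAbs = 1) || (big && decide (b.natAbs = 2)))

/-- A torus element separates the fundamental roots `i` and `j`. -/
def sepPair (D : ChevalleyDatum) (big : Bool) (i j : ℕ) : Bool :=
  (List.range D.rank).any fun g => (List.range D.rank).any fun d => ([0, 1, 2] : List ℤ).any fun b =>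
    sepVal big (D.cartan g (D.simple i) + b * D.cartan d (D.simple i))
        (D.cartan g (D.simple j) + b * D.cartan d (D.simple j)) ||
      sepVal big (D.cartan g (D.simple j) + b * D.cartan d (D.simple j))
        (D.cartan g (D.simple i) + b * D.cartan d (D.simple i))

/-- The checks needed for the classification of weakly closed subgroups. -/
def wcOK (D : ChevalleyDatum) (big : Bool) (W : List (ℕ × ℕ × ℕ)) : Bool :=
  ((List.range (D.nroots / 2)).all fun d =>
      ((List.range D.rank).any fun i => decide (D.simple i = D.nroots / 2 + d)) ||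
        wcTerms D big (D.nroots / 2 + d) (W.getD d (0, 0, 0))) &&
    (List.range D.rank).all fun i => (List.range D.rank).all fun j =>
      decide (i = j) || sepPair D big i j

namespace Sys

variable {D : ChevalleyDatum} (S : Sys.{u} D) {F : Type u} [Field F]

/-- The positive non-fundamental roots outside `J` with index at least `k`. -/
def wcP (J : Set ℕ) (k r : ℕ) : Prop := k ≤ r ∧ ¬ S.InJ J r ∧ ∀ i < D.rank, r ≠ D.simple i

/-- The product of fundamental root elements with given coordinates. -/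
def simpProd (L : List ℕ) (c : ℕ → F) : GL D.Idx F :=
  (L.map fun i => S.xU (D.simple i) (c i)).prod

include S

/-- Terms of a commutator touching the outside of `J` stay outside and are not fundamental. -/
theorem commTerms_wcP {J : Set ℕ} {r s : ℕ} (hr : r < D.nroots) (hr' : D.nroots / 2 ≤ r)
    (hs : s < D.nroots) (hs' : D.nroots / 2 ≤ s) (hJ : ¬ S.InJ J r ∨ ¬ S.InJ J s)
    {c : ℕ × ℤ × ℕ × ℕ} (hc : c ∈ D.commTerms r s) {k : ℕ} (hk : k ≤ c.1) :
    S.wcP J k c.1 := by
  obtain ⟨hlt, i, j, hi, hj, hvec⟩ := S.commTerms_vec hr hs hc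
  have n1 := S.vec_nonneg r hr hr'
  have n2 := S.vec_nonneg s hs hs'
  refine ⟨hk, fun hcJ => ?_, fun q hq e => ?_⟩
  · rcases hJ with h | h
    · refine h ⟨hr, fun a ha haJ => ?_⟩
      have := hvec a ha; rw [hcJ.2 a ha haJ] at this
      nlinarith [n1 a ha, n2 a ha]
    · refine h ⟨hs, fun a ha haJ => ?_⟩
      have := hvec a ha; rw [hcJ.2 a ha haJ] at this
      nlinarith [n1 a ha, n2 a ha]
  · have hz : ∀ a < D.rank, a ≠ q → S.vec r a = 0 ∧ S.vec s a = 0 := fun a ha haq => by
      have := hvec a ha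
      rw [e, S.vec_simple q hq a ha, if_neg (Ne.symm haq)] at this
      constructor <;> nlinarith [n1 a ha, n2 a ha]
    have hq' := hvec q hq
    rw [e, S.vec_simple q hq q hq, if_pos rfl] at hq'
    have hone : S.vec r q = 0 ∨ S.vec s q = 0 := by
      by_contra hh
      push Not at hh
      have : 1 ≤ S.vec r q := by have := n1 q hq; omega
      have : 1 ≤ S.vec s q := by have := n2 q hq; omega
      nlinarith
    rcases hone with h0 | h0
    · refine absurd ?_ (S.lev_pos hr hr').ne'
      rw [S.lev_eq]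
      refine Finset.sum_eq_zero fun a ha => ?_
      by_cases haq : a = q
      · subst haq; rw [h0, mul_zero]
      · rw [(hz a (Finset.mem_range.1 ha) haq).1, mul_zero]
    · refine absurd ?_ (S.lev_pos hs hs').ne'
      rw [S.lev_eq]
      refine Finset.sum_eq_zero fun a ha => ?_
      by_cases haq : a = q
      · subst haq; rw [h0, mul_zero]
      · rw [(hz a (Finset.mem_range.1 ha) haq).2, mul_zero]

theorem genBy_wcP_mono (J : Set ℕ) {k l : ℕ} (h : k ≤ l) :
    S.genBy F (S.wcP J l) ≤ S.genBy F (S.wcP J k) :=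
  S.genBy_mono fun _ _ _ hP => ⟨h.trans hP.1, hP.2⟩

/-- Commutator with a root element outside `J`, given normality of the higher subgroups. -/
theorem radComm_aux {J : Set ℕ} {r : ℕ} (h1 : D.nroots / 2 ≤ r) (h2 : r < D.nroots)
    (hJ : ¬ S.InJ J r)
    (hN : ∀ v ∈ D.posUnipotent F, ∀ g ∈ S.genBy F (S.wcP J (r + 1)),
      v * g * v⁻¹ ∈ S.genBy F (S.wcP J (r + 1))) (t : F)
    {v : GL D.Idx F} (hv : v ∈ D.posUnipotent F) :
    v * S.xU r t * v⁻¹ * (S.xU r t)⁻¹ ∈ S.genBy F (S.wcP J (r + 1)) := by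
  rw [S.posUnipotent_eq] at hv
  have gen : ∀ (s : ℕ) (a : F), D.nroots / 2 ≤ s → s < D.nroots →
      S.xU s a * S.xU r t * (S.xU s a)⁻¹ * (S.xU r t)⁻¹ ∈ S.genBy F (S.wcP J (r + 1)) := by
    intro s a hs hs'
    by_cases e : s = r
    · subst e
      rw [S.xU_inv, S.xU_inv, S.xU_add, S.xU_add, S.xU_add,
        show a + t + -a + -t = 0 by ring, S.xU_zero]
      exact one_mem _
    have hc := S.comm_wU h2 hs' e (S.pos_ne_neg h2 h1 hs) t a
    have hw : S.wU (D.commWord F r s t a) ∈ S.genBy F (S.wcP J (r + 1)) := by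
      rw [wU]
      refine Subgroup.list_prod_mem _ fun x hx => ?_
      obtain ⟨p, hp, rfl⟩ := List.mem_map.1 hx
      obtain ⟨g1, -, g3⟩ := S.commWord_gt h2 hs' h1 hs hp
      simp only [ChevalleyDatum.commWord, List.mem_map] at hp
      obtain ⟨d, hd, rfl⟩ := hp
      exact S.xU_mem_genBy (by omega) g3
        (S.commTerms_wcP h2 h1 hs' hs (Or.inl hJ) hd g1) _
    have e2 := hN _ (mul_mem (S.xU_mem_posUnipotent h1 h2 t) (S.xU_mem_posUnipotent hs hs' a)) _ hw
    rwa [← hc, show S.xU s a * S.xU r t * (S.xU r t * S.xU s a)⁻¹ =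
      S.xU s a * S.xU r t * (S.xU s a)⁻¹ * (S.xU r t)⁻¹ by group] at e2
  induction hv using Subgroup.closure_induction'' with
  | mem y hy => obtain ⟨s, a, hs, hs', rfl⟩ := hy; exact gen s a hs hs'
  | inv_mem y hy => obtain ⟨s, a, hs, hs', rfl⟩ := hy; rw [S.xU_inv]; exact gen s (-a) hs hs'
  | one => simp
  | mul a b ha _ iha ihb =>
    have haU : a ∈ D.posUnipotent F := by rw [S.posUnipotent_eq]; exact ha
    have := mul_mem (hN a haU _ ihb) iha
    rwa [show a * (b * S.xU r t * b⁻¹ * (S.xU r t)⁻¹) * a⁻¹ *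
        (a * S.xU r t * a⁻¹ * (S.xU r t)⁻¹) =
      a * b * S.xU r t * (a * b)⁻¹ * (S.xU r t)⁻¹ by group] at this

theorem wcP_normal (J : Set ℕ) (k : ℕ) : ∀ v ∈ D.posUnipotent F, ∀ g ∈ S.genBy F (S.wcP J k),
    v * g * v⁻¹ ∈ S.genBy F (S.wcP J k) := by
  induction hd : D.nroots - k using Nat.strong_induction_on generalizing k with
  | _ d ih =>
    intro v hv g hg
    have hle : S.genBy F (S.wcP J k) ≤
        (S.genBy F (S.wcP J k)).comap (MulAut.conj v).toMonoidHom :=
      S.genBy_le fun r h1 h2 hP t => by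
        show v * S.xU r t * v⁻¹ ∈ S.genBy F (S.wcP J k)
        have hk : k ≤ r := hP.1
        have hc := S.radComm_aux h1 h2 hP.2.1 (ih (D.nroots - (r + 1)) (by omega) (r + 1) rfl) t hv
        have := mul_mem (S.genBy_wcP_mono J (show k ≤ r + 1 by omega) hc)
          (S.xU_mem_genBy h1 h2 hP t)
        rwa [inv_mul_cancel_right] at this
    exact hle hg

theorem radComm {J : Set ℕ} {r : ℕ} (h1 : D.nroots / 2 ≤ r) (h2 : r < D.nroots)
    (hJ : ¬ S.InJ J r) (t : F) {v : GL D.Idx F} (hv : v ∈ D.posUnipotent F) {k : ℕ}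
    (hk : k ≤ r + 1) : v * S.xU r t * v⁻¹ * (S.xU r t)⁻¹ ∈ S.genBy F (S.wcP J k) :=
  S.genBy_wcP_mono J hk (S.radComm_aux h1 h2 hJ (S.wcP_normal J (r + 1)) t hv)

/-! ### Coordinates at the fundamental roots -/

theorem simpProd_add {J : Set ℕ} {c d : ℕ → F} (hc : ∀ i ∈ J, c i = 0) : ∀ L : List ℕ,
    (∀ i ∈ L, i < D.rank) → ∀ (hd : ∀ i ∈ J, d i = 0),
    ∃ e ∈ S.genBy F (S.wcP J (D.nroots / 2)),
      S.simpProd L c * S.simpProd L d = S.simpProd L (c + d) * e := by
  intro L
  induction L with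
  | nil => intro _ _; exact ⟨1, one_mem _, by simp [simpProd]⟩
  | cons i L ih =>
    intro hL hd
    have hi := hL i (List.mem_cons_self ..)
    have hL' : ∀ x ∈ L, x < D.rank := fun x hx => hL x (List.mem_cons_of_mem _ hx)
    obtain ⟨e, he, hh⟩ := ih hL' hd
    have hU : ∀ f : ℕ → F, S.simpProd L f ∈ D.posUnipotent F := fun f =>
      Subgroup.list_prod_mem _ fun x hx => by
        obtain ⟨j, hj, rfl⟩ := List.mem_map.1 hx
        exact S.xU_mem_posUnipotent (S.simple_pos j (hL' j hj)).1 (S.simple_lt (hL' j hj)) _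
    obtain ⟨a, b, A, B, ha, hb, hA, hB⟩ : ∃ a b A B, a = S.xU (D.simple i) (c i) ∧
        b = S.xU (D.simple i) (d i) ∧ A = S.simpProd L c ∧ B = S.simpProd L d :=
      ⟨_, _, _, _, rfl, rfl, rfl, rfl⟩
    have hcomm : b⁻¹ * A * b * A⁻¹ ∈ S.genBy F (S.wcP J (D.nroots / 2)) := by
      by_cases hiJ : i ∈ J
      · rw [hb, hd i hiJ, S.xU_zero]; simp
      have hr := S.radComm (S.simple_pos i hi).1 (S.simple_lt hi)
        (fun h => hiJ ((S.inJ_simple_iff hi).1 h)) (d i) (v := A) (hA ▸ hU c)
        (k := D.nroots / 2) (by have := (S.simple_pos i hi).1; omega)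
      rw [← hb] at hr
      have hbU : b⁻¹ ∈ D.posUnipotent F := by
        rw [hb]; exact inv_mem (S.xU_mem_posUnipotent (S.simple_pos i hi).1 (S.simple_lt hi) _)
      have := S.wcP_normal J _ _ hbU _ hr
      rwa [show b⁻¹ * (A * b * A⁻¹ * b⁻¹) * b⁻¹⁻¹ = b⁻¹ * A * b * A⁻¹ by group] at this
    have hABU : (A * B)⁻¹ ∈ D.posUnipotent F := inv_mem (mul_mem (hA ▸ hU c) (hB ▸ hU d))
    refine ⟨e * ((A * B)⁻¹ * (b⁻¹ * A * b * A⁻¹) * (A * B)⁻¹⁻¹),
      mul_mem he (S.wcP_normal J _ _ hABU _ hcomm), ?_⟩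
    have hab : S.xU (D.simple i) ((c + d) i) = a * b := by rw [ha, hb, S.xU_add]; rfl
    simp only [simpProd, List.map_cons, List.prod_cons]
    rw [hab, ← ha, ← hb]
    show a * S.simpProd L c * (b * S.simpProd L d) = a * b * S.simpProd L (c + d) * _
    rw [← hA, ← hB]
    rw [← hA, ← hB] at hh
    rw [mul_assoc (a * b), ← mul_assoc (S.simpProd L (c + d)), ← hh]
    group

theorem simpProd_zero (L : List ℕ) : S.simpProd L (0 : ℕ → F) = 1 :=
  List.prod_eq_one fun x hx => by
    obtain ⟨j, -, rfl⟩ := List.mem_map.1 hx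
    exact S.xU_zero _

theorem simpProd_single {q : ℕ} (v : F) : ∀ L : List ℕ, L.Nodup → q ∈ L →
    S.simpProd L (fun i => if i = q then v else 0) = S.xU (D.simple q) v := by
  intro L
  induction L with
  | nil => simp
  | cons i L ih =>
    intro hn hq
    rw [List.nodup_cons] at hn
    simp only [simpProd, List.map_cons, List.prod_cons]
    by_cases e : i = q
    · subst e
      rw [if_pos rfl, List.prod_eq_one, mul_one]
      intro x hx
      obtain ⟨j, hj, rfl⟩ := List.mem_map.1 hx
      rw [if_neg (by rintro rfl; exact hn.1 hj), S.xU_zero]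
    · rw [if_neg e, S.xU_zero, one_mul]
      exact ih hn.2 ((List.mem_cons.1 hq).resolve_left (Ne.symm e))

/-! ### Isolating the top root of a commutator -/

omit S in
theorem inj_pair {a b : F} (ha0 : a ≠ 0) (hb0 : b ≠ 0) (hab : a ≠ b) : ∃ t : Fˣ,
    ((t : F) ^ 2 ≠ 1) ∨ (a ^ 2 = 1 ∧ b ^ 2 = 1) := by
  by_cases h : a ^ 2 = 1
  · by_cases h' : b ^ 2 = 1
    · exact ⟨1, Or.inr ⟨h, h'⟩⟩
    · exact ⟨Units.mk0 b hb0, Or.inl h'⟩
  · exact ⟨Units.mk0 a ha0, Or.inl h⟩

omit S in
theorem natAbs_cast_ne_zero {C : ℤ} (h : C.natAbs = 1) : (C : F) ≠ 0 := by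
  rcases Int.natAbs_eq_iff.1 h with rfl | rfl <;> simp

/-- If all commutators at a witness lie in `M` then so does the root subgroup of the top root. -/
theorem top_mem_of_witness {big : Bool} {k : ℕ} {w : ℕ × ℕ × ℕ}
    (hw : wcTerms D big k w = true) (hq : ∃ a : F, a ≠ 0 ∧ a ≠ 1)
    (hbig : big = true → ∃ a b : F, a ≠ 0 ∧ a ≠ 1 ∧ b ≠ 0 ∧ b ≠ 1 ∧ a ≠ b)
    {M : Subgroup (GL D.Idx F)}
    (hM : ∀ t v : F, S.wU (D.commWord F w.1 w.2.1 t v) ∈ M)
    (hdrop : ∀ c ∈ D.commTerms w.1 w.2.1, k < c.1 → ∀ t : F, S.xU c.1 t ∈ M)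
    (hcomm : ∀ c ∈ D.commTerms w.1 w.2.1, ∀ t v : F,
      S.xU c.1 v * S.xU k t * (S.xU c.1 v)⁻¹ * (S.xU k t)⁻¹ ∈ M) :
    ∀ t : F, S.xU k t ∈ M := by
  simp only [wcTerms, Bool.and_eq_true, decide_eq_true_eq, List.all_eq_true] at hw
  obtain ⟨⟨-, hshape⟩, hgt⟩ := hw
  set T := D.commTerms w.1 w.2.1 with hT
  -- the low part of the word lies in `M`
  have hlow : ∀ t v : F, S.wU ((T.take w.2.2).map fun c =>
      (c.1, (c.2.1 : F) * (-t) ^ c.2.2.1 * v ^ c.2.2.2)) ∈ M := by
    intro t v
    have h := hM t v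
    rw [ChevalleyDatum.commWord, ← hT, ← List.take_append_drop w.2.2 T, List.map_append,
      S.wU_append] at h
    refine (Subgroup.mul_mem_cancel_right M ?_).1 h
    rw [wU]
    refine Subgroup.list_prod_mem _ fun x hx => ?_
    obtain ⟨p, hp, rfl⟩ := List.mem_map.1 hx
    obtain ⟨c, hc, rfl⟩ := List.mem_map.1 hp
    exact hdrop c (List.mem_of_mem_drop hc) (hgt c hc) _
  have hmemT : ∀ c ∈ T.take w.2.2, c ∈ T := fun c hc => List.mem_of_mem_take hc
  generalize T.take w.2.2 = L at hshape hlow hmemT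
  obtain ⟨a, ha0, ha1⟩ := hq
  match L, hshape, hlow, hmemT with
  | [], hshape, _, _ => exact absurd hshape (by simp [wcShape])
  | (_ :: _ :: _ :: _ :: _), hshape, _, _ => exact absurd hshape (by simp [wcShape])
  | [(c, C, i, j)], hshape, hlow, hmemT =>
    simp only [wcShape, decide_eq_true_eq] at hshape
    obtain ⟨rfl, hC, rfl, rfl⟩ := hshape
    intro t
    have h := hlow (-(t / (C : F))) 1
    have hC' := natAbs_cast_ne_zero (F := F) hC
    simpa [wU, mul_div_cancel₀ _ hC'] using h
  | [(c₁, C₁, i, j), (c, C, i', j')], hshape, hlow, hmemT =>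
    simp only [wcShape, decide_eq_true_eq] at hshape
    obtain ⟨rfl, hC, rfl, rfl, hij⟩ := hshape
    have hC' := natAbs_cast_ne_zero (F := F) hC
    have hE : ∀ p x : F, x ≠ 0 →
        S.xU c₁ ((C₁ : F) * p) * S.xU c ((C : F) * (p * x)) ∈ M := by
      intro p x hx
      rcases hij with ⟨rfl, rfl⟩ | ⟨rfl, rfl⟩
      · convert hlow (-x) (p / x) using 1
        simp only [wU, List.map_cons, List.map_nil, List.prod_cons, List.prod_nil, mul_one]
        congr 2 <;> field_simp
      · convert hlow (-(p / x)) x using 1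
        simp only [wU, List.map_cons, List.map_nil, List.prod_cons, List.prod_nil, mul_one]
        congr 2 <;> field_simp
    intro t
    have hd : a - 1 ≠ 0 := sub_ne_zero.2 ha1
    have h := mul_mem (inv_mem (hE (t / ((C : F) * (a - 1))) 1 one_ne_zero))
      (hE (t / ((C : F) * (a - 1))) a ha0)
    rw [_root_.mul_inv_rev, mul_assoc, inv_mul_cancel_left, S.xU_inv, S.xU_add] at h
    convert h using 2
    field_simp
    ring
  | [(c₁, C₁, i, j), (c₂, C₂, i', j'), (c, C, i'', j'')], hshape, hlow, hmemT =>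
    simp only [wcShape, Bool.and_eq_true, decide_eq_true_eq] at hshape
    obtain ⟨hb, rfl, hC, rfl, rfl, hij⟩ := hshape
    obtain ⟨a, b, ha0, ha1, hb0, hb1, hab⟩ := hbig hb
    have hC' := natAbs_cast_ne_zero (F := F) hC
    have hE : ∀ p x : F, x ≠ 0 → S.xU c₁ ((C₁ : F) * p) *
        (S.xU c₂ ((C₂ : F) * (p * x)) * S.xU c ((C : F) * (p * x ^ 2))) ∈ M := by
      intro p x hx
      rcases hij with ⟨rfl, rfl, rfl, rfl⟩ | ⟨rfl, rfl, rfl, rfl⟩
      · convert hlow (-x) (p / x) using 1
        simp only [wU, List.map_cons, List.map_nil, List.prod_cons, List.prod_nil, mul_one]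
        refine congrArg₂ (· * ·) ?_ (congrArg₂ (· * ·) ?_ ?_) <;> congr 1 <;> field_simp
      · convert hlow (-(p / x)) x using 1
        simp only [wU, List.map_cons, List.map_nil, List.prod_cons, List.prod_nil, mul_one]
        refine congrArg₂ (· * ·) ?_ (congrArg₂ (· * ·) ?_ ?_) <;> congr 1 <;> field_simp
    have hG : ∀ v y : F, y ≠ 0 → y ≠ 1 →
        S.xU c₂ ((C₂ : F) * v) * S.xU c ((C : F) * (v * (1 + y))) ∈ M := by
      intro v y hy0 hy1
      have hd : y - 1 ≠ 0 := sub_ne_zero.2 hy1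
      set p := v / (y - 1) with hp
      have h := mul_mem (inv_mem (hE p 1 one_ne_zero)) (hE p y hy0)
      rw [_root_.mul_inv_rev, mul_assoc, inv_mul_cancel_left, _root_.mul_inv_rev, S.xU_inv, S.xU_inv,
        mul_assoc, ← mul_assoc (S.xU c₂ _), S.xU_add] at h
      have e1 : -((C₂ : F) * (p * 1)) + (C₂ : F) * (p * y) = (C₂ : F) * v := by
        rw [hp]; field_simp; ring
      rw [e1] at h
      have hk := hcomm _ (hmemT (c₂, C₂, i', j') (by simp)) (-((C : F) * (p * 1 ^ 2))) ((C₂ : F) * v)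
      have h2 := mul_mem hk h
      simp only [← mul_assoc, inv_mul_cancel_right] at h2
      rw [mul_assoc, S.xU_add] at h2
      convert h2 using 3
      rw [hp]; field_simp; ring
    intro t
    have hd : b - a ≠ 0 := sub_ne_zero.2 hab.symm
    have h := mul_mem (inv_mem (hG (t / ((C : F) * (b - a))) a ha0 ha1))
      (hG (t / ((C : F) * (b - a))) b hb0 hb1)
    rw [_root_.mul_inv_rev, mul_assoc, inv_mul_cancel_left, S.xU_inv, S.xU_add] at h
    convert h using 2
    field_simp
    ring

/-! ### Separating fundamental roots -/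

theorem exists_sep {big : Bool} {i j : ℕ} (hi : i < D.rank) (hj : j < D.rank)
    (h : sepPair D big i j = true) (hq : ∃ a : F, a ≠ 0 ∧ a ≠ 1)
    (hbig : big = true → ∃ a b : F, a ≠ 0 ∧ a ≠ 1 ∧ b ≠ 0 ∧ b ≠ 1 ∧ a ≠ b) :
    ∃ z : ℕ → Fˣ, S.dg z ∈ D.diagonalSubgroup F ∧
      (S.chi z (D.simple i) = 1 ∧ S.chi z (D.simple j) ≠ 1 ∨
        S.chi z (D.simple j) = 1 ∧ S.chi z (D.simple i) ≠ 1) := by
  simp only [sepPair, List.any_eq_true, List.mem_range, Bool.or_eq_true] at h
  obtain ⟨g, hg, d, hd, b, -, h⟩ := h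
  have key : ∀ t : Fˣ, ∀ n < D.rank,
      S.chi (hz D (D.simple g) t * hz D (D.simple d) (t ^ b)) (D.simple n) =
        t ^ (D.cartan g (D.simple n) + b * D.cartan d (D.simple n)) := fun t n hn => by
    rw [S.chi_mul, S.chi_hz_simple hg _ (S.simple_lt hn), S.chi_hz_simple hd _ (S.simple_lt hn),
      _root_.zpow_add, _root_.zpow_mul]
  have hmem : ∀ t : Fˣ, S.dg (hz D (D.simple g) t * hz D (D.simple d) (t ^ b)) ∈
      D.diagonalSubgroup F := fun t => by
    rw [S.dg_mul]
    exact mul_mem (S.dg_mem_diag (S.simple_lt hg) _) (S.dg_mem_diag (S.simple_lt hd) _)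
  have main : ∀ x y : ℤ, sepVal big x y = true → ∃ t : Fˣ, t ^ x = 1 ∧ t ^ y ≠ 1 := by
    intro x y hxy
    simp only [sepVal, Bool.and_eq_true, Bool.or_eq_true, decide_eq_true_eq] at hxy
    obtain ⟨rfl, hy⟩ := hxy
    rcases hy with hy | ⟨hb, hy⟩
    · obtain ⟨a, ha0, ha1⟩ := hq
      refine ⟨Units.mk0 a ha0, zpow_zero _, fun e => ha1 ?_⟩
      rcases Int.natAbs_eq_iff.1 hy with rfl | rfl
      · simpa using congrArg Units.val e
      · simpa using congrArg Units.val e
    · obtain ⟨a, c, ha0, ha1, hc0, hc1, hac⟩ := hbig hb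
      obtain ⟨t, ht | ⟨e1, e2⟩⟩ := inj_pair ha0 hc0 hac
      · refine ⟨t, zpow_zero _, fun e => ht ?_⟩
        have e' : t ^ (2 : ℕ) = 1 := by
          rcases Int.natAbs_eq_iff.1 hy with rfl | rfl
          · exact_mod_cast e
          · have := congrArg (·⁻¹) e
            simpa [_root_.zpow_neg, zpow_natCast] using this
        simpa using congrArg Units.val e'
      · exact absurd (((sq_eq_one_iff.1 e1).resolve_left ha1).trans
          ((sq_eq_one_iff.1 e2).resolve_left hc1).symm) hac
  rcases h with h | h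
  · obtain ⟨t, t1, t2⟩ := main _ _ h
    exact ⟨_, hmem t, Or.inl ⟨by rw [key t i hi]; exact t1, by rw [key t j hj]; exact t2⟩⟩
  · obtain ⟨t, t1, t2⟩ := main _ _ h
    exact ⟨_, hmem t, Or.inr ⟨by rw [key t j hj]; exact t1, by rw [key t i hi]; exact t2⟩⟩

/-- Some word in the reflections of `J` sends the positive roots of `J` to negative roots. -/
theorem exists_longest_J (J : Set ℕ) : ∃ L : List ℕ, (∀ q ∈ L, q < D.rank ∧ q ∈ J) ∧
    ∀ r : Fin D.nroots, D.nroots / 2 ≤ (r : ℕ) → S.InJ J r →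
      (S.wprod L r : ℕ) < D.nroots / 2 := by
  classical
  let W := S.weylSet.filter fun w => ∃ L : List ℕ, (∀ q ∈ L, q < D.rank ∧ q ∈ J) ∧ S.wprod L = w
  obtain ⟨w, hw, hmax⟩ := Finset.exists_max_image W wlen
    ⟨1, Finset.mem_filter.2 ⟨S.mem_weylSet.2 S.weyl.one_mem, [], by simp, rfl⟩⟩
  obtain ⟨hwW, L, hL, rfl⟩ := Finset.mem_filter.1 hw
  refine ⟨L, hL, ?_⟩
  have hneg : ∀ i : Fin D.rank, (i : ℕ) ∈ J → S.lev (S.wprod L (S.sr i) : ℕ) < 0 := by
    intro i hiJ
    rw [← S.not_pos_iff]
    intro hp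
    have h1 := S.wlen_mul_refl_of_pos (S.mem_weylSet.1 hwW) hp
    have h2 := hmax (S.wprod L * S.refl i) (Finset.mem_filter.2 ⟨S.mem_weylSet.2
      (S.weyl.mul_mem (S.mem_weylSet.1 hwW) (S.refl_mem_weyl i)), L ++ [(i : ℕ)],
      fun q hq => (List.mem_append.1 hq).elim (hL q) (by simp +contextual [hiJ]),
      by rw [S.wprod_append]; simp [wprod_cons]⟩)
    omega
  obtain ⟨g, hg⟩ := S.wprod_linear (fun q hq => (hL q hq).1) S.wt
  have hgi : ∀ i < D.rank, i ∈ J → g i < 0 := by
    intro i hi hiJ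
    have h := hg ⟨D.simple i, S.simple_lt hi⟩
    rw [← S.lev_eq, Finset.sum_eq_single_of_mem i (Finset.mem_range.2 hi) (fun j hj hne => by
      rw [S.vec_simple i hi j (Finset.mem_range.1 hj), if_neg (Ne.symm hne), mul_zero]),
      S.vec_simple i hi i hi, if_pos rfl, mul_one] at h
    rw [← h]
    exact hneg ⟨i, hi⟩ hiJ
  intro r hr hrJ
  by_contra hpos
  have h := S.lev_pos (Fin.is_lt _) (not_lt.1 hpos)
  rw [S.lev_eq, hg r] at h
  refine absurd h (not_lt.2 (Finset.sum_nonpos fun i hi => ?_))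
  have hi' := Finset.mem_range.1 hi
  by_cases hiJ : i ∈ J
  · exact mul_nonpos_of_nonpos_of_nonneg (hgi i hi' hiJ).le (S.vec_nonneg r r.2 hr i hi')
  · rw [hrJ.2 i hi' hiJ, mul_zero]

/-! ### The classification -/

/-- A weakly closed subgroup of `U` is the radical of a standard parabolic subgroup. -/
theorem weaklyClosed_eq_radical (G : Geo D) [Finite F] {big : Bool} {W : List (ℕ × ℕ × ℕ)}
    (h : wcOK D big W = true) (hq : ∃ a : F, a ≠ 0 ∧ a ≠ 1)
    (hbig : big = true → ∃ a b : F, a ≠ 0 ∧ a ≠ 1 ∧ b ≠ 0 ∧ b ≠ 1 ∧ a ≠ b)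
    {X : Subgroup (GL D.Idx F)} (hXU : X ≤ D.posUnipotent F)
    (hwc : ∀ g ∈ D.group F, X.map (MulAut.conj g).toMonoidHom ≤ D.posUnipotent F →
      X.map (MulAut.conj g).toMonoidHom = X) :
    ∃ J : Set ℕ, (∀ j ∈ J, j < D.rank) ∧ X = D.unipotentRadical F J := by
  classical
  simp only [wcOK, Bool.and_eq_true, Bool.or_eq_true, List.all_eq_true, List.any_eq_true,
    List.mem_range, decide_eq_true_eq] at h
  obtain ⟨hroots, hsep⟩ := h
  have hstab : ∀ g ∈ D.group F,
      (∀ x ∈ X, g * x * g⁻¹ ∈ D.posUnipotent F) → ∀ x ∈ X, g * x * g⁻¹ ∈ X := by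
    intro g hg hgU x hx
    have e := hwc g hg (by rintro _ ⟨y, hy, rfl⟩; exact hgU y hy)
    have hmem : g * x * g⁻¹ ∈ X.map (MulAut.conj g).toMonoidHom := ⟨x, hx, rfl⟩
    rwa [e] at hmem
  have hUX : ∀ v ∈ D.posUnipotent F, ∀ x ∈ X, v * x * v⁻¹ ∈ X := fun v hv =>
    hstab v (S.pos_le_group hv) fun x hx => mul_mem (mul_mem hv (hXU hx)) (inv_mem hv)
  have hHX : ∀ d ∈ D.diagonalSubgroup F, ∀ x ∈ X, d * x * d⁻¹ ∈ X := fun d hd =>
    hstab d (S.diag_le_group hd) fun x hx => S.diag_conj_pos hd (hXU hx)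
  set J : Set ℕ := {j | j < D.rank ∧
    ∀ x ∈ X, S.nU (D.simple j) 1 * x * (S.nU (D.simple j) (1 : F))⁻¹ ∈ X} with hJdef
  refine ⟨J, fun j hj => hj.1, ?_⟩
  rw [S.unipotentRadical_eq G]
  set R := S.genBy F fun r => ¬ S.InJ J r with hR
  -- `X` lies in the radical
  have hXR : X ≤ R := by
    intro x hx
    obtain ⟨L, hL, hLneg⟩ := S.exists_longest_J J
    have hLr : ∀ q ∈ L, q < D.rank := fun q hq => (hL q hq).1
    have hn : ∀ L : List ℕ, (∀ q ∈ L, q < D.rank ∧ q ∈ J) →
        S.nw F L * x * (S.nw F L)⁻¹ ∈ X ∧ S.nw F L ∈ D.parabolicSubgroup F J := by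
      intro L
      induction L with
      | nil => exact fun _ => ⟨by simpa using hx, by simp⟩
      | cons q L ih =>
        intro hL
        obtain ⟨i1, i2⟩ := ih fun y hy => hL y (List.mem_cons_of_mem _ hy)
        obtain ⟨hq, hqJ⟩ := hL q (List.mem_cons_self ..)
        refine ⟨?_, ?_⟩
        · have := hqJ.2 _ i1
          rwa [show S.nU (D.simple q) 1 * (S.nw F L * x * (S.nw F L)⁻¹) *
              (S.nU (D.simple q) (1 : F))⁻¹ = S.nw F (q :: L) * x * (S.nw F (q :: L))⁻¹ by
            rw [nw_cons]; group] at this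
        · rw [nw_cons]
          exact mul_mem (Subgroup.mem_sup_right
            (Subgroup.subset_closure ⟨q, hqJ, hq, S.coe_nU _ _⟩)) i2
    obtain ⟨hnX, hnP⟩ := hn L hL
    have hxU : x ∈ S.tailU F (D.nroots / 2) := by rw [← S.posUnipotent_eq]; exact hXU hx
    obtain ⟨a, ha, b, hb, rfl⟩ := S.exists_split (fun r => S.InJ J r) le_rfl hxU
    set n := S.nw F L with hndef
    have haV : n * a * n⁻¹ ∈ D.negUnipotent F := by
      have hle : S.genBy F (fun r => S.InJ J r) ≤
          (D.negUnipotent F).comap (MulAut.conj n).toMonoidHom :=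
        S.genBy_le fun r h1 h2 hr t => by
          obtain ⟨c, hc⟩ := S.acts_nw (F := F) hLr ⟨r, h2⟩
          show n * S.xU r t * n⁻¹ ∈ D.negUnipotent F
          rw [hc t]
          exact Subgroup.subset_closure ⟨_, _,
            (S.isNeg_iff _).2 (hLneg ⟨r, h2⟩ h1 hr), rfl⟩
      exact hle ha
    have haU : n * a * n⁻¹ ∈ D.posUnipotent F := by
      have hb' : n * b * n⁻¹ ∈ D.posUnipotent F := by
        have := (Subgroup.mem_normalizer_iff.1 (S.parabolic_le_normalizer G J hnP) b).1
          (by rw [S.unipotentRadical_eq G]; exact hb)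
        rw [S.unipotentRadical_eq G] at this
        exact S.genBy_le_pos _ this
      have := mul_mem (hXU hnX) (inv_mem hb')
      rwa [show n * (a * b) * n⁻¹ * (n * b * n⁻¹)⁻¹ = n * a * n⁻¹ by group] at this
    have h1 : n * a * n⁻¹ ∈ (⊥ : Subgroup (GL D.Idx F)) :=
      (S.pos_inf_neg (F := F)) ▸ Subgroup.mem_inf.2 ⟨haU, haV⟩
    rw [Subgroup.mem_bot, conj_eq_one_iff] at h1
    rw [h1, one_mul]
    exact hb
  refine le_antisymm hXR ?_
  -- the subgroups `M k`
  let M : ℕ → Subgroup (GL D.Idx F) := fun k => X ⊔ S.genBy F (S.wcP J k)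
  have hMn : ∀ k, ∀ v ∈ D.posUnipotent F, ∀ y ∈ M k, v * y * v⁻¹ ∈ M k := by
    intro k v hv y hy
    have hle : M k ≤ (M k).comap (MulAut.conj v).toMonoidHom := sup_le
      (fun x hx => Subgroup.mem_sup_left (hUX v hv x hx))
      (fun g hg => Subgroup.mem_sup_right (S.wcP_normal J k v hv g hg))
    exact hle hy
  have hMd : ∀ k, ∀ d ∈ D.diagonalSubgroup F, ∀ y ∈ M k, d * y * d⁻¹ ∈ M k := by
    intro k d hd y hy
    have hle : M k ≤ (M k).comap (MulAut.conj d).toMonoidHom := sup_le
      (fun x hx => Subgroup.mem_sup_left (hHX d hd x hx))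
      (fun g hg => Subgroup.mem_sup_right (S.diag_conj_genBy _ hd hg))
    exact hle hy
  set h2 := D.nroots / 2
  have hRU : R ≤ D.posUnipotent F := S.genBy_le_pos _
  -- the fundamental roots outside `J`
  have base : R ≤ M h2 := by
    let A : (ℕ → F) → Prop := fun c =>
      (∀ i ∈ J, c i = 0) ∧ S.simpProd (List.range D.rank) c ∈ M h2
    have hlt : ∀ i ∈ List.range D.rank, i < D.rank := fun i => List.mem_range.1
    have hAadd : ∀ c d, A c → A d → A (c + d) := by
      intro c d hc hd
      refine ⟨fun i hi => by simp [hc.1 i hi, hd.1 i hi], ?_⟩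
      obtain ⟨e, he, hh⟩ := S.simpProd_add hc.1 _ hlt hd.1
      refine (Subgroup.mul_mem_cancel_right _ (Subgroup.mem_sup_right he)).1 ?_
      rw [← hh]
      exact mul_mem hc.2 hd.2
    have hAsm : ∀ c, A c → ∀ z : ℕ → Fˣ, S.dg z ∈ D.diagonalSubgroup F →
        A (fun i => (S.chi z (D.simple i) : F) * c i) := by
      intro c hc z hz
      refine ⟨fun i hi => by simp [hc.1 i hi], ?_⟩
      have hh := hMd h2 _ hz _ hc.2
      have e : ∀ L : List ℕ, (∀ i ∈ L, i < D.rank) → S.dg z * S.simpProd L c * (S.dg z)⁻¹ =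
          S.simpProd L fun i => (S.chi z (D.simple i) : F) * c i := by
        intro L
        induction L with
        | nil => intro _; simp [simpProd]
        | cons i L ih =>
          intro hL
          simp only [simpProd, List.map_cons, List.prod_cons]
          rw [← S.dg_conj_xU z (S.simple_lt (hL i (List.mem_cons_self ..)))]
          have hh := ih fun y hy => hL y (List.mem_cons_of_mem _ hy)
          simp only [simpProd] at hh
          rw [← hh]; group
      rwa [e _ hlt] at hh
    have hA0 : A 0 := ⟨fun i _ => rfl, by rw [S.simpProd_zero]; exact one_mem _⟩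
    have hAneg : ∀ c, A c → A (-c) := by
      intro c hc
      refine ⟨fun i hi => by simp [hc.1 i hi], ?_⟩
      obtain ⟨e, he, hh⟩ := S.simpProd_add hc.1 _ hlt (d := -c) (fun i hi => by simp [hc.1 i hi])
      rw [add_neg_cancel, S.simpProd_zero, one_mul] at hh
      refine (Subgroup.mul_mem_cancel_left _ hc.2).1 ?_
      rw [hh]; exact Subgroup.mem_sup_right he
    have hsing : ∀ i < D.rank, ∀ v : F, A (fun j => if j = i then v else 0) →
        S.xU (D.simple i) v ∈ M h2 := fun i hi v hv => by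
      rw [← S.simpProd_single v _ List.nodup_range (List.mem_range.2 hi)]; exact hv.2
    have hsingA : ∀ i < D.rank, i ∉ J → ∀ v : F, S.xU (D.simple i) v ∈ M h2 →
        A (fun j => if j = i then v else 0) := fun i hi hiJ v hv =>
      ⟨fun j hj => if_neg (by rintro rfl; exact hiJ hj), by
        rw [S.simpProd_single v _ List.nodup_range (List.mem_range.2 hi)]; exact hv⟩
    -- every coordinate occurring in `A` occurs with a full root subgroup
    have hfull : ∀ (n : ℕ) (c : ℕ → F), A c →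
        ((Finset.range D.rank).filter fun i => c i ≠ 0).card = n →
        ∀ i < D.rank, c i ≠ 0 → ∀ t : F, S.xU (D.simple i) t ∈ M h2 := by
      intro n
      induction n using Nat.strong_induction_on with
      | _ n ih =>
        intro c hc hcard i hi hci
        set supp := (Finset.range D.rank).filter fun j => c j ≠ 0 with hsupp
        have hless : ∀ c' : ℕ → F, (∀ j, c j = 0 → c' j = 0) → ∀ j < D.rank, c j ≠ 0 → c' j = 0 →
            ((Finset.range D.rank).filter fun j => c' j ≠ 0).card < n := by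
          intro c' hsub j hj hcj hc'j
          rw [← hcard]
          refine Finset.card_lt_card ((Finset.ssubset_iff_of_subset ?_).2 ⟨j, ?_, ?_⟩)
          · intro l hl
            rw [Finset.mem_filter] at hl ⊢
            exact ⟨hl.1, fun h0 => hl.2 (hsub l h0)⟩
          · rw [Finset.mem_filter]; exact ⟨Finset.mem_range.2 hj, hcj⟩
          · simp [hc'j]
        by_cases hone : ∃ j < D.rank, j ≠ i ∧ c j ≠ 0
        · obtain ⟨j, hj, hji, hcj⟩ := hone
          obtain ⟨z, hz, hzv⟩ := S.exists_sep hi hj ((hsep i hi j hj).resolve_left (Ne.symm hji)) hq hbig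
          set c' : ℕ → F := fun l => (S.chi z (D.simple l) : F) * c l + -c l with hc'
          have hc'A : A c' := hAadd _ _ (hAsm c hc z hz) (hAneg c hc)
          have hsub : ∀ l, c l = 0 → c' l = 0 := fun l hl => by simp [hc', hl]
          have hne : ∀ l, S.chi z (D.simple l) ≠ 1 → c l ≠ 0 → c' l ≠ 0 := fun l h1 h2 h3 => by
            apply h1
            have : ((S.chi z (D.simple l) : F) - 1) * c l = 0 := by rw [← h3, hc']; ring
            exact Units.ext (sub_eq_zero.1 ((mul_eq_zero.1 this).resolve_right h2))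
          have hz0 : ∀ l, S.chi z (D.simple l) = 1 → c' l = 0 := fun l h1 => by simp [hc', h1]
          rcases hzv with ⟨zi, zj⟩ | ⟨zj, zi⟩
          · have hjall := ih _ (hless c' hsub i hi hci (hz0 i zi)) c' hc'A rfl j hj (hne j zj hcj)
            have hjJ : j ∉ J := fun hh => hcj (hc.1 j hh)
            set c'' : ℕ → F := c + fun l => if l = j then -c j else 0 with hc''
            have hc''A : A c'' := hAadd _ _ hc (hsingA j hj hjJ _ (hjall _))
            refine ih _ (hless c'' (fun l hl => ?_) j hj hcj (by simp [hc''])) c'' hc''A rfl i hi ?_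
            · by_cases e : l = j
              · subst e; simp [hc'']
              · simp [hc'', hl, e]
            · simp [hc'', Ne.symm hji, hci]
          · exact ih _ (hless c' hsub j hj hcj (hz0 j zj)) c' hc'A rfl i hi (hne i zi hci)
        · push Not at hone
          have hiJ : i ∉ J := fun hh => hci (hc.1 i hh)
          have hs1 : c = fun l => if l = i then c i else if l < D.rank then 0 else c l := by
            funext l
            by_cases e : l = i
            · subst e; simp
            · by_cases e' : l < D.rank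
              · simp [e, e', hone l e' e]
              · simp [e, e']
          have hci' : S.xU (D.simple i) (c i) ∈ M h2 := by
            have hh := hc.2
            have e : S.simpProd (List.range D.rank) c =
                S.simpProd (List.range D.rank) (fun l => if l = i then c i else 0) := by
              simp only [simpProd]
              congr 1
              refine List.map_congr_left fun l hl => ?_
              congr 1
              by_cases e : l = i
              · subst e; simp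
              · simp [e, hone l (List.mem_range.1 hl) e]
            rwa [e, S.simpProd_single _ _ List.nodup_range (List.mem_range.2 hi)] at hh
          have hsq : ∀ s : F, S.xU (D.simple i) (s ^ 2 * c i) ∈ M h2 := by
            intro s
            by_cases hs : s = 0
            · simp [hs]
            have hh := hMd h2 _ (S.dg_mem_diag (S.simple_lt hi) (Units.mk0 s hs)) _ hci'
            rw [S.dg_conj_xU _ (S.simple_lt hi), S.chi_hz_simple hi _ (S.simple_lt hi),
              S.cartan_self i hi] at hh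
            simpa [zpow_ofNat] using hh
          intro t
          set v := t / c i with hv
          have hsurj : ∃ s s' : F, v = s ^ 2 - s' ^ 2 := by
            by_cases h2 : (2 : F) = 0
            · have : CharP F 2 := CharTwo.of_one_ne_zero_of_two_eq_zero one_ne_zero h2
              obtain ⟨s, hs⟩ := FiniteField.isSquare_of_char_two (ringChar.eq F 2) v
              exact ⟨s, 0, by rw [hs]; ring⟩
            · exact ⟨(v + 1) / 2, (v - 1) / 2, by field_simp; ring⟩
          obtain ⟨s, s', hss⟩ := hsurj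
          have hh := mul_mem (hsq s) (inv_mem (hsq s'))
          rw [S.xU_inv, S.xU_add] at hh
          convert hh using 2
          rw [show s ^ 2 * c i + -(s' ^ 2 * c i) = v * c i by rw [hss]; ring, hv]
          field_simp
    -- coordinates of an element of the radical
    have hcoord : ∀ y ∈ R, ∃ c : ℕ → F, (∀ i ∈ J, c i = 0) ∧
        ∃ e ∈ S.genBy F (S.wcP J h2), y = S.simpProd (List.range D.rank) c * e := by
      have hgen : ∀ r, h2 ≤ r → r < D.nroots → ¬ S.InJ J r → ∀ t : F,
          ∃ c : ℕ → F, (∀ i ∈ J, c i = 0) ∧ ∃ e ∈ S.genBy F (S.wcP J h2),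
            S.xU r t = S.simpProd (List.range D.rank) c * e := by
        intro r r1 r2 rJ t
        by_cases e : ∃ i < D.rank, r = D.simple i
        · obtain ⟨i, hi, rfl⟩ := e
          refine ⟨fun j => if j = i then t else 0, fun j hj => if_neg ?_, 1, one_mem _, ?_⟩
          · rintro rfl; exact rJ ((S.inJ_simple_iff hi).2 hj)
          · rw [mul_one, S.simpProd_single t _ List.nodup_range (List.mem_range.2 hi)]
        · push Not at e
          exact ⟨0, fun _ _ => rfl, _, S.xU_mem_genBy r1 r2 ⟨r1, rJ, e⟩ t,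
            by rw [S.simpProd_zero, one_mul]⟩
      intro y hy
      rw [hR, genBy] at hy
      induction hy using Subgroup.closure_induction'' with
      | mem z hz => obtain ⟨r, t, r1, r2, rJ, rfl⟩ := hz; exact hgen r r1 r2 rJ t
      | inv_mem z hz =>
        obtain ⟨r, t, r1, r2, rJ, rfl⟩ := hz
        rw [S.xU_inv]; exact hgen r r1 r2 rJ (-t)
      | one => exact ⟨0, fun _ _ => rfl, 1, one_mem _, by rw [S.simpProd_zero, one_mul]⟩
      | mul a b _ _ ha hb =>
        obtain ⟨c, hc, e, he, rfl⟩ := ha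
        obtain ⟨d, hd, e', he', rfl⟩ := hb
        obtain ⟨e'', he'', hh⟩ := S.simpProd_add hc _ hlt hd
        have hdU : S.simpProd (List.range D.rank) d ∈ D.posUnipotent F :=
          Subgroup.list_prod_mem _ fun x hx => by
            obtain ⟨j, hj, rfl⟩ := List.mem_map.1 hx
            exact S.xU_mem_posUnipotent (S.simple_pos j (hlt j hj)).1 (S.simple_lt (hlt j hj)) _
        refine ⟨c + d, fun i hi => by simp [hc i hi, hd i hi],
          e'' * ((S.simpProd (List.range D.rank) d)⁻¹ * e *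
            (S.simpProd (List.range D.rank) d)⁻¹⁻¹) * e',
          mul_mem (mul_mem he'' (S.wcP_normal J _ _ (inv_mem hdU) _ he)) he', ?_⟩
        calc _ = S.simpProd (List.range D.rank) c * S.simpProd (List.range D.rank) d *
            ((S.simpProd (List.range D.rank) d)⁻¹ * e * S.simpProd (List.range D.rank) d * e') := by
              group
          _ = _ := by rw [hh]; group
    have hsimple : ∀ i < D.rank, i ∉ J → ∀ t : F, S.xU (D.simple i) t ∈ M h2 := by
      intro i hi hiJ
      obtain ⟨x, hx, hxi⟩ : ∃ x ∈ X, x ∉ S.upSub F i := by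
        by_contra hcon
        push Not at hcon
        exact hiJ ⟨hi, hstab _ (S.wU_mem_group (D.nWord (D.simple i) 1)) fun x hx =>
          S.genBy_le_pos _ (S.nU_conj_upSub hi (hcon x hx))⟩
      obtain ⟨c, hc, e, he, hxe⟩ := hcoord x (hXR hx)
      have hA : A c := ⟨hc, (Subgroup.mul_mem_cancel_right _ (Subgroup.mem_sup_right he)).1
        (hxe ▸ Subgroup.mem_sup_left hx)⟩
      refine hfull _ c hA rfl i hi fun hci => hxi ?_
      rw [hxe]
      refine mul_mem (Subgroup.list_prod_mem _ fun y hy => ?_)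
        (S.genBy_mono (fun r _ _ hP => hP.2.2 i hi) he)
      obtain ⟨j, hj, rfl⟩ := List.mem_map.1 hy
      by_cases e : j = i
      · rw [e, hci, S.xU_zero]; exact one_mem _
      · exact S.xU_mem_genBy (S.simple_pos j (hlt j hj)).1 (S.simple_lt (hlt j hj))
          (fun e' => e (S.simple_inj (hlt j hj) hi e')) _
    refine S.genBy_le fun r r1 r2 rJ t => ?_
    by_cases e : ∃ i < D.rank, r = D.simple i
    · obtain ⟨i, hi, rfl⟩ := e
      exact hsimple i hi (fun hh => rJ ((S.inJ_simple_iff hi).2 hh)) t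
    · push Not at e
      exact Subgroup.mem_sup_right (S.xU_mem_genBy r1 r2 ⟨r1, rJ, e⟩ t)
  -- climb through the roots
  have step : ∀ k, h2 ≤ k → R ≤ M k → R ≤ M (k + 1) := by
    intro k hk hRk
    have hcom : ∀ y ∈ M k, ∀ v ∈ D.posUnipotent F, v * y * v⁻¹ * y⁻¹ ∈ M (k + 1) := by
      have hgen : ∀ r, h2 ≤ r → r < D.nroots → S.wcP J k r → ∀ (t : F) (v : GL D.Idx F),
          v ∈ D.posUnipotent F → v * S.xU r t * v⁻¹ * (S.xU r t)⁻¹ ∈ M (k + 1) :=
        fun r r1 r2 hP t v hv => Subgroup.mem_sup_right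
          (S.radComm r1 r2 hP.2.1 t hv (by have := hP.1; omega))
      intro y hy
      have hy0 : y ∈ X ⊔ S.genBy F (S.wcP J k) := hy
      rw [Subgroup.sup_eq_closure] at hy0
      have hXc : ∀ x ∈ X, ∀ v ∈ D.posUnipotent F, v * x * v⁻¹ * x⁻¹ ∈ M (k + 1) :=
        fun x hx v hv => Subgroup.mem_sup_left (mul_mem (hUX v hv x hx) (inv_mem hx))
      let Z : Subgroup (GL D.Idx F) :=
        { carrier := {y | y ∈ D.posUnipotent F ∧
            ∀ v ∈ D.posUnipotent F, v * y * v⁻¹ * y⁻¹ ∈ M (k + 1)}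
          one_mem' := ⟨one_mem _, fun v _ => by simp⟩
          mul_mem' := by
            rintro a b ⟨ha, ha'⟩ ⟨hb, hb'⟩
            refine ⟨mul_mem ha hb, fun v hv => ?_⟩
            have := mul_mem (ha' v hv) (hMn _ a ha _ (hb' v hv))
            rwa [show v * a * v⁻¹ * a⁻¹ * (a * (v * b * v⁻¹ * b⁻¹) * a⁻¹) =
              v * (a * b) * v⁻¹ * (a * b)⁻¹ by group] at this
          inv_mem' := by
            rintro a ⟨ha, ha'⟩
            refine ⟨inv_mem ha, fun v hv => ?_⟩
            have := hMn _ a⁻¹ (inv_mem ha) _ (inv_mem (ha' v hv))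
            rwa [show a⁻¹ * (v * a * v⁻¹ * a⁻¹)⁻¹ * a⁻¹⁻¹ = v * a⁻¹ * v⁻¹ * a⁻¹⁻¹ by group]
              at this }
      have hle : X ⊔ S.genBy F (S.wcP J k) ≤ Z := sup_le
        (fun x hx => ⟨hXU hx, hXc x hx⟩)
        (S.genBy_le fun r r1 r2 hP t =>
          ⟨S.xU_mem_posUnipotent r1 r2 t, hgen r r1 r2 hP t⟩)
      exact (hle hy).2
    have hkey : k < D.nroots → S.wcP J k k → ∀ t : F, S.xU k t ∈ M (k + 1) := by
      intro hkn hP
      obtain ⟨d, rfl⟩ := Nat.exists_eq_add_of_le hk
      have hw := (hroots d (by have := S.even_nroots; omega)).resolve_left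
        (fun ⟨i, hi, e⟩ => hP.2.2 i hi e.symm)
      have hw' := hw
      simp only [wcTerms, Bool.and_eq_true, decide_eq_true_eq] at hw'
      obtain ⟨⟨⟨s1, s1', s2, s2', sne⟩, -⟩, -⟩ := hw'
      set w := W.getD d (0, 0, 0) with hwdef
      have hs : w.1 < D.nroots := by omega
      have hs' : w.2.1 < D.nroots := by omega
      have hne := S.pos_ne_neg hs s1 s2
      -- one of the two roots is outside `J`
      have hside : ¬ S.InJ J w.1 ∨ ¬ S.InJ J w.2.1 := by
        by_contra hh
        push Not at hh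
        obtain ⟨c, hc, hck⟩ : ∃ c ∈ D.commTerms w.1 w.2.1, c.1 = h2 + d := by
          have hsh : wcShape big ((D.commTerms w.1 w.2.1).take w.2.2) (h2 + d) = true := by
            simp only [wcTerms, Bool.and_eq_true] at hw
            exact hw.1.2
          have hsub : ∀ c ∈ (D.commTerms w.1 w.2.1).take w.2.2, c ∈ D.commTerms w.1 w.2.1 :=
            fun c hc => List.mem_of_mem_take hc
          generalize (D.commTerms w.1 w.2.1).take w.2.2 = L at hsh hsub
          match L, hsh with
          | [], h => exact absurd h (by simp [wcShape])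
          | (_ :: _ :: _ :: _ :: _), h => exact absurd h (by simp [wcShape])
          | [c], h =>
            simp only [wcShape, decide_eq_true_eq] at h
            exact ⟨c, hsub c (by simp), h.1⟩
          | [e₁, c], h =>
            simp only [wcShape, decide_eq_true_eq] at h
            exact ⟨c, hsub c (by simp), h.1⟩
          | [e₁, e₂, c], h =>
            simp only [wcShape, Bool.and_eq_true, decide_eq_true_eq] at h
            exact ⟨c, hsub c (by simp), h.2.1⟩
        obtain ⟨hlt, i, j, -, -, hvec⟩ := S.commTerms_vec hs hs' hc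
        refine hP.2.1 ⟨hkn, fun a ha haJ => ?_⟩
        rw [← hck, hvec a ha, hh.1.2 a ha haJ, hh.2.2 a ha haJ]; ring
      refine S.top_mem_of_witness hw hq hbig (fun t v => ?_) (fun c hc hkc t => ?_)
        (fun c hc t v => ?_)
      · have e := S.comm_wU hs hs' (Ne.symm sne) hne t v
        have hxs := S.xU_mem_posUnipotent (F := F) s1 hs t
        have hxs' := S.xU_mem_posUnipotent (F := F) s2 hs' v
        rw [show S.wU (D.commWord F w.1 w.2.1 t v) = (S.xU w.2.1 v)⁻¹ * (S.xU w.1 t)⁻¹ *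
          (S.xU w.2.1 v * S.xU w.1 t) by rw [e]; group]
        rcases hside with hside | hside
        · have hy : (S.xU w.1 t)⁻¹ ∈ M (h2 + d) :=
            inv_mem (hRk (S.xU_mem_genBy s1 hs hside t))
          have := hcom _ hy _ (inv_mem hxs')
          simpa [mul_assoc] using this
        · have hy : (S.xU w.2.1 v)⁻¹ ∈ M (h2 + d) :=
            inv_mem (hRk (S.xU_mem_genBy s2 hs' hside v))
          have := inv_mem (hcom _ hy _ (inv_mem hxs))
          simpa [mul_assoc] using this
      · obtain ⟨hlt, -⟩ := S.commTerms_vec hs hs' hc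
        exact Subgroup.mem_sup_right (S.xU_mem_genBy (by omega) hlt
          (S.commTerms_wcP hs s1 hs' s2 hside hc hkc) t)
      · obtain ⟨hlt, i, j, hi, hj, hl⟩ := S.commTerms_spec hs hs' hc
        have hc2 : h2 ≤ c.1 := by
          have := S.lt_of_lev hs (s := c.1) (by
            have := S.lev_pos hs s1; have := S.lev_pos hs' s2; nlinarith)
          omega
        exact Subgroup.mem_sup_right (S.radComm hk hkn hP.2.1 t
          (S.xU_mem_posUnipotent hc2 hlt v) le_rfl)
    refine hRk.trans (sup_le le_sup_left (S.genBy_le fun r r1 r2 hP t => ?_))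
    rcases hP.1.eq_or_lt with e | e
    · subst e; exact hkey r2 hP t
    · exact Subgroup.mem_sup_right (S.xU_mem_genBy r1 r2 ⟨e, hP.2⟩ t)
  have hall : ∀ d, R ≤ M (h2 + d) := by
    intro d
    induction d with
    | zero => exact base
    | succ d ih => exact step _ (Nat.le_add_right _ _) ih
  refine (hall D.nroots).trans (sup_le le_rfl (S.genBy_le fun r _ r2 hP t => ?_))
  have := hP.1
  omega

end Sys

end CfsgLib.Chev
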